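import Mathlib

/-!
Arithmetic of the bound on the order of a nilpotent permutation group.
-/

set_option autoImplicit false
set_option linter.style.haveILetI false

namespace CfsgLib.NilPerm

/-- The two-part of the factorial. -/
def twoPart (n : ℕ) : ℕ := 2 ^ padicValNat 2 n.factorial

theorem twoPart_pos (n : ℕ) : 0 < twoPart n := pow_pos two_pos _

theorem twoPart_zero : twoPart 0 = 1 := by simp [twoPart]

theorem twoPart_two_mul (m : ℕ) : twoPart (2 * m) = 2 ^ m * twoPart m := by
  rw [twoPart, twoPart, padicValNat_factorial_mul, pow_add, mul_comm]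

theorem twoPart_two_mul_add_one (m : ℕ) : twoPart (2 * m + 1) = twoPart (2 * m) := by
  rw [twoPart, twoPart, padicValNat_factorial_mul_add m (by norm_num : 1 < 2)]

theorem twoPart_four_add_one (i : ℕ) : twoPart (4 * i + 1) = twoPart (4 * i) := by
  have h := twoPart_two_mul_add_one (2 * i)
  rwa [← mul_assoc] at h

theorem twoPart_four_add_two (i : ℕ) : twoPart (4 * i + 2) = 2 * twoPart (4 * i) := by
  have h1 := twoPart_two_mul (2 * i + 1)
  have h2 := twoPart_two_mul (2 * i)
  rw [show 4 * i + 2 = 2 * (2 * i + 1) by ring, h1, twoPart_two_mul_add_one, show 4 * i = 2 * (2 * i) by ring, h2]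
  ring

theorem twoPart_four_add_three (i : ℕ) : twoPart (4 * i + 3) = 2 * twoPart (4 * i) := by
  have h := twoPart_two_mul_add_one (2 * i + 1)
  rw [show 4 * i + 3 = 2 * (2 * i + 1) + 1 by ring, h, ← twoPart_four_add_two, show 4 * i + 2 = 2 * (2 * i + 1) by ring]

theorem twoPart_mul_le (a b : ℕ) : twoPart a * twoPart b ≤ twoPart (a + b) := by
  rw [twoPart, twoPart, twoPart, ← pow_add, ← padicValNat.mul (Nat.factorial_ne_zero a) (Nat.factorial_ne_zero b)]
  refine Nat.pow_le_pow_right two_pos ?_
  exact (padicValNat_dvd_iff_le (Nat.factorial_ne_zero _)).1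
    (pow_padicValNat_dvd.trans (Nat.factorial_mul_factorial_dvd_factorial_add a b))

theorem twoPart_four : twoPart 4 = 8 := by
  rw [show 4 = 2 * (2 * 1) from rfl, twoPart_two_mul, twoPart_two_mul, twoPart]
  simp

theorem eight_mul_twoPart_le (i : ℕ) : 8 * twoPart (4 * i) ≤ twoPart (4 * (i + 1)) := by
  have := twoPart_mul_le 4 (4 * i)
  rwa [twoPart_four, show 4 + 4 * i = 4 * (i + 1) by ring] at this

theorem two_pow_le (n : ℕ) : 2 ^ n ≤ twoPart n * (n + 1) := by
  induction n using Nat.strong_induction_on with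
  | _ n ih =>
    rcases Nat.eq_zero_or_pos n with rfl | hn
    · simp [twoPart_zero]
    have h := ih (n / 2) (Nat.div_lt_self hn one_lt_two)
    rcases Nat.even_or_odd' n with ⟨m, rfl | rfl⟩
    · rw [show 2 * m / 2 = m by omega] at h
      rw [twoPart_two_mul, two_mul, pow_add, mul_assoc]
      refine Nat.mul_le_mul_left _ (h.trans (Nat.mul_le_mul_left _ (by omega)))
    · rw [show (2 * m + 1) / 2 = m by omega] at h
      rw [twoPart_two_mul_add_one, twoPart_two_mul, pow_succ, two_mul, pow_add,
        show 2 ^ m * twoPart m * (m + m + 1 + 1) = 2 ^ m * (twoPart m * (m + 1)) * 2 by ring]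
      exact Nat.mul_le_mul_right _ (Nat.mul_le_mul_left _ h)

/-- The largest order of a nilpotent subgroup of the symmetric group. -/
def nilBound (n : ℕ) : ℕ := if n % 4 = 3 then 3 * twoPart (n - 3) else twoPart n

theorem nilBound_pos (n : ℕ) : 0 < nilBound n := by
  unfold nilBound
  split_ifs
  · exact Nat.mul_pos (by norm_num) (twoPart_pos _)
  · exact twoPart_pos _

theorem nilBound_eq (i : ℕ) :
    nilBound (4 * i) = twoPart (4 * i) ∧ nilBound (4 * i + 1) = twoPart (4 * i) ∧
      nilBound (4 * i + 2) = 2 * twoPart (4 * i) ∧ nilBound (4 * i + 3) = 3 * twoPart (4 * i) := by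
  refine ⟨?_, ?_, ?_, ?_⟩
  · rw [nilBound, if_neg (by omega)]
  · rw [nilBound, if_neg (by omega), twoPart_four_add_one]
  · rw [nilBound, if_neg (by omega), twoPart_four_add_two]
  · rw [nilBound, if_pos (by omega), show 4 * i + 3 - 3 = 4 * i by omega]

theorem twoPart_le_nilBound (n : ℕ) : twoPart n ≤ nilBound n := by
  unfold nilBound
  split_ifs with h
  · obtain ⟨i, rfl⟩ : ∃ i, n = 4 * i + 3 := ⟨n / 4, by omega⟩
    rw [twoPart_four_add_three, show 4 * i + 3 - 3 = 4 * i by omega]
    exact Nat.mul_le_mul_right _ (by norm_num)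
  · exact le_rfl

theorem nilBound_mul_le (a b : ℕ) : nilBound a * nilBound b ≤ nilBound (a + b) := by
  have form : ∀ n, ∃ i r, n = 4 * i + r ∧ r < 4 ∧
      nilBound n = (if r = 3 then 3 else if r = 2 then 2 else 1) * twoPart (4 * i) := fun n => by
    obtain ⟨h0, h1, h2, h3⟩ := nilBound_eq (n / 4)
    refine ⟨n / 4, n % 4, (Nat.div_add_mod n 4).symm, Nat.mod_lt _ (by norm_num), ?_⟩
    have e := Nat.div_add_mod n 4
    rcases (by omega : n % 4 = 0 ∨ n % 4 = 1 ∨ n % 4 = 2 ∨ n % 4 = 3) with h | h | h | h <;> rw [h] at e ⊢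
    · rw [add_zero] at e; rw [e] at h0; simp [h0, e]
    · rw [e] at h1; simp [h1]
    · rw [e] at h2; simp [h2]
    · rw [e] at h3; simp [h3]
  obtain ⟨i, r, rfl, hr, ha⟩ := form a
  obtain ⟨j, s, rfl, hs, hb⟩ := form b
  obtain ⟨k, t, hk, ht, hab⟩ := form (4 * i + r + (4 * j + s))
  rw [ha, hb, hab]
  have h1 := twoPart_mul_le (4 * i) (4 * j)
  rw [← mul_add] at h1
  have h8 := eight_mul_twoPart_le (i + j)
  have hcases : (k = i + j ∧ t = r + s) ∨ (k = i + j + 1 ∧ t + 4 = r + s) := by omega
  have hA := twoPart_pos (4 * (i + j))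
  rcases hcases with ⟨rfl, rfl⟩ | ⟨rfl, ht4⟩
  · interval_cases r <;> interval_cases s <;> simp <;> nlinarith
  · interval_cases r <;> interval_cases s <;> interval_cases t <;> simp at ht4 ⊢ <;> nlinarith

theorem nilBound_mono {a b : ℕ} (h : a ≤ b) : nilBound a ≤ nilBound b := by
  obtain ⟨c, rfl⟩ := Nat.exists_eq_add_of_le h
  exact le_trans (Nat.le_mul_of_pos_right _ (nilBound_pos c)) (nilBound_mul_le a c)

theorem nilBound_two : nilBound 2 = 2 := by
  rw [(nilBound_eq 0).2.2.1, twoPart_zero]

theorem two_mul_nilBound_le {a b : ℕ} (h : a + 2 ≤ b) : 2 * nilBound a ≤ nilBound b := by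
  refine le_trans ?_ (nilBound_mono h)
  have := nilBound_mul_le a 2
  rwa [nilBound_two, mul_comm] at this

/-- The largest order of a transitive `p`-group of degree the `p`-part of `n`. -/
def pBound (p n : ℕ) : ℕ := p ^ padicValNat p (p ^ n.factorization p).factorial

/-- The largest order of a transitive nilpotent group of degree `n`. -/
def transBound (n : ℕ) : ℕ := ∏ p ∈ n.primeFactors, pBound p n

theorem pBound_pos {p : ℕ} (hp : p.Prime) (n : ℕ) : 0 < pBound p n := pow_pos hp.pos _

theorem transBound_pos (n : ℕ) : 0 < transBound n :=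
  Finset.prod_pos fun _ hp => pBound_pos (Nat.prime_of_mem_primeFactors hp) _

theorem transBound_mul {u v : ℕ} (h : u.Coprime v) (hu : u ≠ 0) (hv : v ≠ 0) :
    transBound (u * v) = transBound u * transBound v := by
  rw [transBound, transBound, transBound, Nat.primeFactors_mul hu hv,
    Finset.prod_union h.disjoint_primeFactors]
  congr 1 <;> refine Finset.prod_congr rfl fun p hp => ?_ <;> unfold pBound <;>
    rw [Nat.factorization_mul hu hv, Finsupp.add_apply]
  · have hp' : v.factorization p = 0 := Finsupp.notMem_support_iff.1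
      (by rw [Nat.support_factorization]; exact Finset.disjoint_left.1 h.disjoint_primeFactors hp)
    rw [hp', add_zero]
  · have hp' : u.factorization p = 0 := Finsupp.notMem_support_iff.1
      (by rw [Nat.support_factorization]; exact Finset.disjoint_right.1 h.disjoint_primeFactors hp)
    rw [hp', zero_add]

theorem transBound_prime_pow {p a : ℕ} (hp : p.Prime) (ha : a ≠ 0) :
    transBound (p ^ a) = p ^ padicValNat p (p ^ a).factorial := by
  rw [transBound, Nat.primeFactors_prime_pow ha hp, Finset.prod_singleton, pBound, hp.factorization_pow, Finsupp.single_eq_same]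

theorem mul_padicValNat_factorial_pow {p : ℕ} [Fact p.Prime] (a : ℕ) :
    (p - 1) * padicValNat p (p ^ a).factorial = p ^ a - 1 := by
  induction a with
  | zero => simp
  | succ a ih =>
    have hp : 1 ≤ p := (Fact.out : p.Prime).one_lt.le
    rw [pow_succ', padicValNat_factorial_mul, mul_add, ih]
    obtain ⟨q, rfl⟩ := Nat.exists_eq_add_of_le hp
    have h1 : 1 ≤ (1 + q) ^ a := Nat.one_le_pow _ _ (by omega)
    obtain ⟨c, hc⟩ := Nat.exists_eq_add_of_le h1
    rw [hc]
    simp [mul_add, add_mul]
    omega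

theorem pow_four_le_five_pow {p : ℕ} (h : 5 ≤ p) : p ^ 4 ≤ 5 ^ (p - 1) := by
  induction p, h using Nat.le_induction with
  | base => norm_num
  | succ p hp ih =>
    rw [show p + 1 - 1 = (p - 1) + 1 by omega, pow_succ]
    refine le_trans ?_ (Nat.mul_le_mul_right 5 ih)
    nlinarith [pow_le_pow_left' (show 5 ≤ p from hp) 3, pow_le_pow_left' (show 5 ≤ p from hp) 2]

theorem five_growth {n : ℕ} (h : 11 ≤ n) : 16 * 5 ^ (n - 1) * (n + 1) ^ 4 ≤ 16 ^ n := by
  induction n, h using Nat.le_induction with
  | base => norm_num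
  | succ n hn ih =>
    rw [show n + 1 - 1 = (n - 1) + 1 by omega, pow_succ, pow_succ 16 n]
    refine le_trans ?_ (Nat.mul_le_mul_right 16 ih)
    have h1 : 5 * (n + 1 + 1) ^ 4 ≤ 16 * (n + 1) ^ 4 := by
      have : (12 : ℕ) * (n + 2) ≤ 13 * (n + 1) := by omega
      have h4 := Nat.pow_le_pow_left this 4
      rw [mul_pow, mul_pow] at h4
      rw [show n + 1 + 1 = n + 2 by ring]
      norm_num at h4 ⊢
      omega
    calc 16 * (5 ^ (n - 1) * 5) * (n + 1 + 1) ^ 4 = 16 * 5 ^ (n - 1) * (5 * (n + 1 + 1) ^ 4) := by ring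
      _ ≤ 16 * 5 ^ (n - 1) * (16 * (n + 1) ^ 4) := Nat.mul_le_mul_left _ h1
      _ = _ := by ring

theorem three_growth {n : ℕ} (h : 27 ≤ n) : 4 * 3 ^ (n - 1) * (n + 1) ^ 2 ≤ 4 ^ n := by
  induction n, h using Nat.le_induction with
  | base => norm_num
  | succ n hn ih =>
    rw [show n + 1 - 1 = (n - 1) + 1 by omega, pow_succ, pow_succ 4 n]
    refine le_trans ?_ (Nat.mul_le_mul_right 4 ih)
    have h1 : 3 * (n + 1 + 1) ^ 2 ≤ 4 * (n + 1) ^ 2 := by nlinarith
    calc 4 * (3 ^ (n - 1) * 3) * (n + 1 + 1) ^ 2 = 4 * 3 ^ (n - 1) * (3 * (n + 1 + 1) ^ 2) := by ring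
      _ ≤ 4 * 3 ^ (n - 1) * (4 * (n + 1) ^ 2) := Nat.mul_le_mul_left _ h1
      _ = _ := by ring

/-- Odd prime powers. -/
theorem two_mul_transBound_prime_pow_le {p a : ℕ} (hp : p.Prime) (h2 : p ≠ 2) (ha : a ≠ 0)
    (h3 : p ^ a ≠ 3) (h5 : p ^ a ≠ 5) (h9 : p ^ a ≠ 9) : 2 * transBound (p ^ a) ≤ nilBound (p ^ a) := by
  haveI := Fact.mk hp
  rw [transBound_prime_pow hp ha]
  refine le_trans ?_ (twoPart_le_nilBound _)
  have hv := mul_padicValNat_factorial_pow (p := p) a
  generalize he : padicValNat p (p ^ a).factorial = e at hv ⊢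
  have hs := two_pow_le (p ^ a)
  set n := p ^ a
  set s := twoPart n
  by_contra hlt
  push Not at hlt
  have hs' : 2 ^ n < 2 * p ^ e * (n + 1) :=
    lt_of_le_of_lt hs (Nat.mul_lt_mul_of_pos_right hlt (Nat.succ_pos _))
  by_cases hp3 : p = 3
  · subst hp3
    have hn27 : 27 ≤ n := by
      have hle : 3 ≤ a := by
        by_contra hlt'
        rcases (show a = 1 ∨ a = 2 by omega) with e' | e'
        · exact h3 (by simp only [n, e']; norm_num)
        · exact h9 (by simp only [n, e']; norm_num)
      calc 27 = 3 ^ 3 := by norm_num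
        _ ≤ n := Nat.pow_le_pow_right (by norm_num) hle
    have hg := three_growth hn27
    have hsq := Nat.pow_lt_pow_left hs' (n := 2) (by norm_num)
    rw [mul_pow, mul_pow, ← pow_mul, ← pow_mul 3 e, show e * 2 = n - 1 by omega, mul_comm n 2, pow_mul] at hsq
    norm_num at hsq hg
    omega
  · have hp5 : 5 ≤ p := by
      rcases Nat.lt_or_ge p 5 with h | h
      · have := hp.two_le
        interval_cases p <;> first | (norm_num at hp; done) | omega
      · exact h
    by_cases hn11 : 11 ≤ n
    · have hg := five_growth hn11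
      have hq := Nat.pow_lt_pow_left hs' (n := 4) (by norm_num)
      rw [mul_pow, mul_pow, ← pow_mul, mul_comm n 4, pow_mul] at hq
      have hpe : (p ^ e) ^ 4 ≤ 5 ^ (n - 1) := by
        rw [← hv, ← pow_mul, mul_comm e 4, pow_mul, pow_mul]
        exact Nat.pow_le_pow_left (pow_four_le_five_pow hp5) e
      have := Nat.mul_le_mul_right ((n + 1) ^ 4) (Nat.mul_le_mul_left (2 ^ 4) hpe)
      exact absurd (lt_of_lt_of_le hq (le_trans this (le_trans (le_of_eq (by norm_num)) hg))) (lt_irrefl _)
    · have hn5 : 5 ≤ n := le_trans hp5 (Nat.le_self_pow ha p)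
      have ha1 : a = 1 := by
        by_contra hne
        have : 5 ^ 2 ≤ n := le_trans (Nat.pow_le_pow_left hp5 2) (Nat.pow_le_pow_right hp.pos (by omega))
        omega
      subst ha1
      have hn : n = p := pow_one p
      have hp7 : p = 7 := by
        rw [hn] at hn11 h5
        interval_cases p <;> first | rfl | omega | (norm_num at hp; done)
      rw [hn, hp7] at hs' hv
      obtain rfl : e = 1 := by omega
      norm_num at hs'

theorem transBound_one : transBound 1 = 1 := by simp [transBound]

theorem transBound_three : transBound 3 = 3 := by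
  have h := transBound_prime_pow (p := 3) (a := 1) Nat.prime_three one_ne_zero
  haveI := Fact.mk Nat.prime_three
  have := mul_padicValNat_factorial_pow (p := 3) 1
  rw [pow_one] at h this
  rw [h, show padicValNat 3 (Nat.factorial 3) = 1 by omega, pow_one]

theorem transBound_five : transBound 5 = 5 := by
  have hp : Nat.Prime 5 := by norm_num
  have h := transBound_prime_pow (p := 5) (a := 1) hp one_ne_zero
  haveI := Fact.mk hp
  have := mul_padicValNat_factorial_pow (p := 5) 1
  rw [pow_one] at h this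
  rw [h, show padicValNat 5 (Nat.factorial 5) = 1 by omega, pow_one]

theorem transBound_nine : transBound 9 = 81 := by
  have h := transBound_prime_pow (p := 3) (a := 2) Nat.prime_three two_ne_zero
  haveI := Fact.mk Nat.prime_three
  have hv := mul_padicValNat_factorial_pow (p := 3) 2
  rw [show (3 : ℕ) ^ 2 = 9 from rfl] at h hv
  rw [h, show padicValNat 3 (Nat.factorial 9) = 4 by omega]
  norm_num

theorem transBound_two_pow (a : ℕ) : transBound (2 ^ a) = twoPart (2 ^ a) := by
  rcases eq_or_ne a 0 with rfl | ha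
  · simp [transBound, twoPart]
  · exact transBound_prime_pow Nat.prime_two ha

theorem transBound_le (n : ℕ) : transBound n ≤ nilBound n := by
  induction n using Nat.recOnPrimeCoprime with
  | zero => simp [transBound, Nat.one_le_iff_ne_zero, (nilBound_pos 0).ne']
  | prime_pow p a hp =>
    by_cases h2 : p = 2
    · subst h2
      rw [transBound_two_pow]
      exact twoPart_le_nilBound _
    rcases eq_or_ne a 0 with rfl | ha
    · rw [pow_zero, transBound_one]
      exact nilBound_pos _
    by_cases h3 : p ^ a = 3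
    · rw [h3, transBound_three, (nilBound_eq 0).2.2.2, twoPart_zero]
    by_cases h5 : p ^ a = 5
    · rw [h5, transBound_five, (nilBound_eq 1).2.1, twoPart_four]
      norm_num
    by_cases h9 : p ^ a = 9
    · rw [h9, transBound_nine, (nilBound_eq 2).2.1, show 4 * 2 = 2 * 4 from rfl, twoPart_two_mul, twoPart_four]
      norm_num
    have := two_mul_transBound_prime_pow_le hp h2 ha h3 h5 h9
    omega
  | coprime u v hu hv huv hPu hPv =>
    rw [transBound_mul huv (by omega) (by omega)]
    refine le_trans (Nat.mul_le_mul hPu hPv) (le_trans (nilBound_mul_le u v) (nilBound_mono ?_))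
    nlinarith

theorem transBound_composite_le {u v : ℕ} (hu : 1 < u) (hv : 1 < v) (huv : u.Coprime v) (h6 : u * v ≠ 6) :
    2 * transBound (u * v) ≤ nilBound (u * v) := by
  rw [transBound_mul huv (by omega) (by omega)]
  refine le_trans (Nat.mul_le_mul_left 2 (Nat.mul_le_mul (transBound_le u) (transBound_le v))) ?_
  refine le_trans (Nat.mul_le_mul_left 2 (nilBound_mul_le u v)) (two_mul_nilBound_le ?_)
  rcases Nat.lt_or_ge u 3 with hu3 | hu3
  · obtain rfl : u = 2 := by omega
    rcases Nat.lt_or_ge v 4 with hv4 | hv4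
    · interval_cases v <;> simp_all
    · omega
  · rcases Nat.lt_or_ge v 3 with hv3 | hv3
    · obtain rfl : v = 2 := by omega
      rcases Nat.lt_or_ge u 4 with hu4 | hu4
      · interval_cases u; simp_all
      · omega
    · nlinarith

end CfsgLib.NilPerm
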