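import Cfsg.Agent.NilPerm.Arith

/-!
The order of a nilpotent group of permutations.
-/

set_option autoImplicit false
set_option linter.style.haveILetI false

namespace CfsgLib.NilPerm

universe u

variable {α : Type u} [Fintype α] [DecidableEq α]

/-- A nilpotent group is the product of a Sylow subgroup and its centraliser. -/
theorem exists_mul_centralizer {G : Type u} [Group G] [Finite G] [Group.IsNilpotent G] {p : ℕ} [Fact p.Prime]
    (P : Sylow p G) (h : G) :
    ∃ c ∈ Subgroup.centralizer ((P : Subgroup G) : Set G), ∃ y ∈ (P : Subgroup G), c * y = h := by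
  have hPn : (P : Subgroup G).Normal := inferInstance
  have htop : Subgroup.centralizer ((P : Subgroup G) : Set G) ⊔ (P : Subgroup G) = ⊤ := by
    by_contra hne
    obtain ⟨q, hq, hdvd⟩ := Nat.exists_prime_and_dvd (fun e => hne (Subgroup.index_eq_one.1 e))
    haveI := Fact.mk hq
    obtain ⟨Q⟩ : Nonempty (Sylow q G) := inferInstance
    have hle : (Q : Subgroup G) ≤ Subgroup.centralizer ((P : Subgroup G) : Set G) ⊔ (P : Subgroup G) := by
      by_cases hqp : q = p
      · subst hqp
        letI := Sylow.unique_of_normal P hPn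
        rw [Subsingleton.elim Q P]
        exact le_sup_right
      · refine le_trans (fun z hz => Subgroup.mem_centralizer_iff.2 fun y hy => ?_) le_sup_left
        exact Subgroup.commute_of_normal_of_disjoint _ _ hPn inferInstance
          (IsPGroup.disjoint_of_ne p q (Ne.symm hqp) _ _ P.2 Q.2) y z hy hz
    exact Q.not_dvd_index (hdvd.trans (Subgroup.index_dvd_of_le hle))
  have hmem : h ∈ Subgroup.centralizer ((P : Subgroup G) : Set G) ⊔ (P : Subgroup G) := htop ▸ Subgroup.mem_top h
  rw [← SetLike.mem_coe, Subgroup.mul_normal] at hmem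
  exact Set.mem_mul.1 hmem

/-- The `p`-part of a transitive nilpotent group. -/
theorem ordProj_le_pBound (H : Subgroup (Equiv.Perm α)) [Group.IsNilpotent H] [Nonempty α]
    [MulAction.IsPretransitive H α] {p : ℕ} (hp : p.Prime) :
    p ^ (Nat.card H).factorization p ∣ pBound p (Fintype.card α) := by
  haveI := Fact.mk hp
  obtain ⟨P⟩ : Nonempty (Sylow p H) := inferInstance
  obtain ⟨w⟩ := (inferInstance : Nonempty α)
  have hPc : Nat.card P = p ^ (Nat.card H).factorization p := P.card_eq_multiplicity
  rw [← hPc]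
  set O := MulAction.orbit (P : Subgroup H) w with hO
  haveI hPn : (P : Subgroup H).Normal := inferInstance
  have hblock : MulAction.IsBlock H O := MulAction.IsBlock.orbit_of_normal w
  have hdn : O.ncard ∣ Fintype.card α := by
    rw [← Nat.card_eq_fintype_card]
    exact hblock.ncard_dvd_card ⟨w, MulAction.mem_orbit_self w⟩
  obtain ⟨j, hj⟩ : ∃ j, O.ncard = p ^ j := by
    obtain ⟨j, hj⟩ := IsPGroup.card_orbit (p := p) P.2 w
    exact ⟨j, by rw [← Nat.card_coe_set_eq]; exact hj⟩
  have hn0 : Fintype.card α ≠ 0 := Fintype.card_ne_zero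
  rw [hj] at hdn
  have hja : j ≤ (Fintype.card α).factorization p := (hp.pow_dvd_iff_le_factorization hn0).1 hdn
  have hinj : Function.Injective (MulAction.toPermHom (P : Subgroup H) O) := by
    rw [← MonoidHom.ker_eq_bot_iff, eq_bot_iff]
    intro x hx
    rw [MonoidHom.mem_ker] at hx
    have hfix : ∀ u : O, x • u = u := fun u => congrArg (fun f : Equiv.Perm O => f u) hx
    rw [Subgroup.mem_bot]
    refine Subtype.ext (Subtype.ext (Equiv.ext fun u => ?_))
    obtain ⟨h, hh⟩ := MulAction.exists_smul_eq H w u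
    obtain ⟨c, hc, y, hy, rfl⟩ := exists_mul_centralizer P h
    have h1 := congrArg Subtype.val (hfix ⟨y • w, ⟨⟨y, hy⟩, rfl⟩⟩)
    have h2 : ((x : H) : Equiv.Perm α) * (c : Equiv.Perm α) = (c : Equiv.Perm α) * ((x : H) : Equiv.Perm α) :=
      congrArg Subtype.val (Subgroup.mem_centralizer_iff.1 hc (x : H) x.2)
    change ((x : H) : Equiv.Perm α) ((y : Equiv.Perm α) w) = (y : Equiv.Perm α) w at h1
    change (c : Equiv.Perm α) ((y : Equiv.Perm α) w) = u at hh
    change ((x : H) : Equiv.Perm α) u = u
    rw [← hh, ← Equiv.Perm.mul_apply, h2, Equiv.Perm.mul_apply, h1]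
  have hd : Nat.card P ∣ (p ^ (Fintype.card α).factorization p).factorial := by
    have h1 := Subgroup.card_dvd_of_injective _ hinj
    rw [Nat.card_perm, Nat.card_coe_set_eq, hj] at h1
    exact h1.trans (Nat.factorial_dvd_factorial (Nat.pow_le_pow_right hp.pos hja))
  rw [hPc] at hd ⊢
  exact pow_dvd_pow p ((padicValNat_dvd_iff_le (Nat.factorial_ne_zero _)).1 hd)

theorem card_le_transBound (H : Subgroup (Equiv.Perm α)) [Group.IsNilpotent H] [Nonempty α]
    [MulAction.IsPretransitive H α] : Nat.card H ≤ transBound (Fintype.card α) := by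
  rw [Nat.prod_primeFactors_pow_factorization (Nat.card_pos (α := H)).ne']
  have hsub : (Nat.card H).primeFactors ⊆ (Fintype.card α).primeFactors := fun p hp => by
    have hpp := Nat.prime_of_mem_primeFactors hp
    have h := ordProj_le_pBound H hpp
    refine (Nat.mem_primeFactors_of_ne_zero Fintype.card_ne_zero).2 ⟨hpp, ?_⟩
    by_contra hnd
    rw [pBound, Nat.factorization_eq_zero_of_not_dvd hnd, pow_zero] at h
    simp only [Nat.factorial_one, padicValNat_one_right, pow_zero] at h
    have hd := Nat.dvd_of_mem_primeFactors hp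
    have hpos := (hpp.dvd_iff_one_le_factorization (Nat.card_pos (α := H)).ne').1 hd
    exact absurd (Nat.eq_one_of_dvd_one ((dvd_pow_self p (by omega)).trans h)) hpp.one_lt.ne'
  refine le_trans (Finset.prod_le_prod' fun p hp => Nat.le_of_dvd (pBound_pos (Nat.prime_of_mem_primeFactors hp) _)
    (ordProj_le_pBound H (Nat.prime_of_mem_primeFactors hp))) ?_
  exact Finset.prod_le_prod_of_subset_of_one_le' hsub fun p hp _ => pBound_pos (Nat.prime_of_mem_primeFactors hp) _

/-- The bound for groups of even permutations. -/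
def altBound (n : ℕ) : ℕ :=
  if n ≤ 1 then 1 else if n = 3 then 3 else if n = 5 then 5 else if n = 6 then 9 else if n = 9 then 81
  else nilBound n / 2

/-- The degrees with exceptional bound. -/
def Exceptional (n : ℕ) : Prop := n ≤ 1 ∨ n = 3 ∨ n = 5 ∨ n = 6 ∨ n = 9

theorem nilBound_small : nilBound 0 = 1 ∧ nilBound 1 = 1 ∧ nilBound 3 = 3 ∧ nilBound 5 = 8 ∧ nilBound 6 = 16 ∧
    nilBound 9 = 128 := by
  refine ⟨?_, ?_, ?_, ?_, ?_, ?_⟩
  · rw [(nilBound_eq 0).1, twoPart_zero]
  · rw [(nilBound_eq 0).2.1, twoPart_zero]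
  · rw [(nilBound_eq 0).2.2.2, twoPart_zero]
  · rw [(nilBound_eq 1).2.1, twoPart_four]
  · rw [(nilBound_eq 1).2.2.1, twoPart_four]
  · rw [(nilBound_eq 2).2.1, show 4 * 2 = 2 * 4 from rfl, twoPart_two_mul, twoPart_four]
    rfl

theorem altBound_eq {n : ℕ} (h : ¬ Exceptional n) : altBound n = nilBound n / 2 := by
  simp only [Exceptional, not_or] at h
  rw [altBound, if_neg h.1, if_neg h.2.1, if_neg h.2.2.1, if_neg h.2.2.2.1, if_neg h.2.2.2.2]

theorem two_dvd_or (n : ℕ) : nilBound n / 2 ≤ altBound n := by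
  by_cases h : Exceptional n
  · obtain ⟨h0, h1, h3, h5, h6, h9⟩ := nilBound_small
    rcases h with h | rfl | rfl | rfl | rfl
    · rcases (by omega : n = 0 ∨ n = 1) with rfl | rfl <;> simp [altBound, h0, h1]
    all_goals simp [altBound, h3, h5, h6, h9]
  · rw [altBound_eq h]

theorem altBound_le_nilBound (n : ℕ) : altBound n ≤ nilBound n := by
  by_cases h : Exceptional n
  · obtain ⟨h0, h1, h3, h5, h6, h9⟩ := nilBound_small
    rcases h with h | rfl | rfl | rfl | rfl
    · rcases (by omega : n = 0 ∨ n = 1) with rfl | rfl <;> simp [altBound, h0, h1]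
    all_goals simp [altBound, h3, h5, h6, h9]
  · rw [altBound_eq h]
    exact Nat.div_le_self _ _

theorem two_mul_altBound_le {n : ℕ} (h : ¬ Exceptional n) : 2 * altBound n ≤ nilBound n := by
  rw [altBound_eq h]
  exact Nat.mul_div_le _ _

theorem nilBound_pair_le (a b : ℕ) : nilBound a * nilBound b / 2 ≤ altBound (a + b) :=
  (Nat.div_le_div_right (nilBound_mul_le a b)).trans (two_dvd_or _)

theorem altBound_mul_le {a b : ℕ} (ha : 1 ≤ a) (hb : 1 ≤ b) : altBound a * altBound b ≤ altBound (a + b) := by
  by_cases h : Exceptional a ∧ Exceptional b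
  · obtain ⟨h0, h1, h3, h5, h6, h9⟩ := nilBound_small
    obtain ⟨ha', hb'⟩ := h
    have hA : a = 1 ∨ a = 3 ∨ a = 5 ∨ a = 6 ∨ a = 9 := by unfold Exceptional at ha'; omega
    have hB : b = 1 ∨ b = 3 ∨ b = 5 ∨ b = 6 ∨ b = 9 := by unfold Exceptional at hb'; omega
    have t8 : twoPart 8 = 128 := by rw [show 8 = 2 * 4 from rfl, twoPart_two_mul, twoPart_four]; rfl
    have t12 : twoPart 12 = 1024 := by
      rw [show 12 = 2 * 6 from rfl, twoPart_two_mul, show 6 = 4 * 1 + 2 from rfl, twoPart_four_add_two, mul_one,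
        twoPart_four]
      rfl
    have t16 : twoPart 16 = 32768 := by rw [show 16 = 2 * 8 from rfl, twoPart_two_mul, t8]; rfl
    have g2 : nilBound 2 = 2 := nilBound_two
    have g4 : nilBound 4 = 8 := by rw [(nilBound_eq 1).1, twoPart_four]
    have g7 : nilBound 7 = 24 := by rw [(nilBound_eq 1).2.2.2, twoPart_four]
    have g8 : nilBound 8 = 128 := by rw [(nilBound_eq 2).1, t8]
    have g10 : nilBound 10 = 256 := by rw [(nilBound_eq 2).2.2.1, t8]
    have g11 : nilBound 11 = 384 := by rw [(nilBound_eq 2).2.2.2, t8]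
    have g12 : nilBound 12 = 1024 := by rw [(nilBound_eq 3).1, t12]
    have g14 : nilBound 14 = 2048 := by rw [(nilBound_eq 3).2.2.1, t12]
    have g15 : nilBound 15 = 3072 := by rw [(nilBound_eq 3).2.2.2, t12]
    have g18 : nilBound 18 = 65536 := by rw [(nilBound_eq 4).2.2.1, t16]
    rcases hA with rfl | rfl | rfl | rfl | rfl <;> rcases hB with rfl | rfl | rfl | rfl | rfl <;>
      norm_num [altBound, g2, g4, g7, g8, g10, g11, g12, g14, g15, g18]
  · refine le_trans ((Nat.le_div_iff_mul_le two_pos).2 ?_) (nilBound_pair_le a b)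
    rw [not_and_or] at h
    rcases h with h | h
    · calc altBound a * altBound b * 2 = (2 * altBound a) * altBound b := by ring
        _ ≤ _ := Nat.mul_le_mul (two_mul_altBound_le h) (altBound_le_nilBound b)
    · calc altBound a * altBound b * 2 = altBound a * (2 * altBound b) := by ring
        _ ≤ _ := Nat.mul_le_mul (altBound_le_nilBound a) (two_mul_altBound_le h)

/-- A nilpotent group of even permutations, transitive case. -/
theorem trans_alt (H : Subgroup (Equiv.Perm α)) [Group.IsNilpotent H] [Nonempty α] [MulAction.IsPretransitive H α]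
    (hA : H ≤ alternatingGroup α) : Nat.card H ≤ altBound (Fintype.card α) := by
  have hT := card_le_transBound H
  set n := Fintype.card α with hn
  have hn0 : n ≠ 0 := Fintype.card_ne_zero
  rcases eq_or_ne n 1 with h1 | h1
  · rw [h1, transBound_one] at hT
    rw [h1]; exact hT
  obtain ⟨p, hp, hpn⟩ := Nat.exists_prime_and_dvd h1
  set a := n.factorization p
  have ha : a ≠ 0 := ((hp.dvd_iff_one_le_factorization hn0).1 hpn |> fun h => by omega)
  have hsplit : p ^ a * (n / p ^ a) = n := Nat.ordProj_mul_ordCompl_eq_self n p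
  set v := n / p ^ a
  rcases eq_or_ne v 1 with hv | hv
  · rw [hv, mul_one] at hsplit
    by_cases h2 : p = 2
    · subst h2
      rcases eq_or_ne n 9 with h9 | h9
      · rw [h9] at hpn; norm_num at hpn
      have hHd : 2 * Nat.card H ∣ n.factorial := by
        haveI : Nontrivial α := Fintype.one_lt_card_iff_nontrivial.1 (by omega)
        refine (Nat.mul_dvd_mul_left 2 (Subgroup.card_dvd_of_le hA)).trans ?_
        rw [two_mul_nat_card_alternatingGroup, Nat.card_perm, Nat.card_eq_fintype_card]
      obtain ⟨k, hk⟩ : ∃ k, Nat.card H = 2 ^ k := by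
        refine ⟨_, Nat.eq_prime_pow_of_unique_prime_dvd (Nat.card_pos (α := H)).ne' ?_⟩
        intro q hq hqd
        by_contra hne
        have h := ordProj_le_pBound H hq
        rw [pBound, ← hn, Nat.factorization_eq_zero_of_not_dvd (n := n) (p := q) (fun hd => hne
          ((Nat.prime_dvd_prime_iff_eq hq Nat.prime_two).1 (hq.dvd_of_dvd_pow (n := a) (by rwa [hsplit])))), pow_zero] at h
        simp only [Nat.factorial_one, padicValNat_one_right, pow_zero] at h
        have hpos := (hq.dvd_iff_one_le_factorization (Nat.card_pos (α := H)).ne').1 hqd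
        exact absurd (Nat.eq_one_of_dvd_one ((dvd_pow_self q (by omega)).trans h)) hq.one_lt.ne'
      rw [hk, ← pow_succ'] at hHd
      have hle : 2 ^ (k + 1) ≤ twoPart n :=
        Nat.pow_le_pow_right two_pos ((padicValNat_dvd_iff_le (Nat.factorial_ne_zero _)).1 hHd)
      refine le_trans ?_ (two_dvd_or n)
      rw [hk]
      exact (Nat.le_div_iff_mul_le two_pos).2 (le_trans (le_of_eq (pow_succ 2 k).symm)
        (le_trans hle (twoPart_le_nilBound n)))
    · by_cases h3 : p ^ a = 3
      · rw [← hsplit, h3, transBound_three] at hT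
        rw [← hsplit, h3]; exact hT
      by_cases h5 : p ^ a = 5
      · rw [← hsplit, h5, transBound_five] at hT
        rw [← hsplit, h5]; exact hT
      by_cases h9 : p ^ a = 9
      · rw [← hsplit, h9, transBound_nine] at hT
        rw [← hsplit, h9]; exact hT
      have h := two_mul_transBound_prime_pow_le hp h2 ha h3 h5 h9
      rw [hsplit] at h
      exact le_trans ((Nat.le_div_iff_mul_le two_pos).2 (by omega)) (two_dvd_or n)
  · by_cases h6 : n = 6
    · rw [h6, show (6 : ℕ) = 2 * 3 from rfl, transBound_mul (by norm_num) (by norm_num) (by norm_num),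
        transBound_three, show transBound 2 = twoPart 2 from transBound_two_pow 1, show 2 = 4 * 0 + 2 from rfl,
        twoPart_four_add_two, mul_zero, twoPart_zero] at hT
      rw [h6]
      exact hT.trans (by norm_num [altBound])
    have hv0 : v ≠ 0 := fun e => hn0 (by rw [← hsplit, e, mul_zero])
    have hv1 : 1 < v := lt_of_le_of_ne (Nat.one_le_iff_ne_zero.2 hv0) (Ne.symm hv)
    have h := transBound_composite_le (u := p ^ a) (v := v) (Nat.one_lt_pow ha hp.one_lt) hv1
      ((Nat.coprime_pow_left_iff (Nat.pos_of_ne_zero ha) _ _).2 (Nat.coprime_ordCompl hp hn0))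
      (by rw [hsplit]; exact h6)
    rw [hsplit] at h
    exact le_trans ((Nat.le_div_iff_mul_le two_pos).2 (by omega)) (two_dvd_or n)

/-- Restriction to an invariant set. -/
def restrictHom (H : Subgroup (Equiv.Perm α)) (q : α → Prop) (h : ∀ f ∈ H, ∀ x, q (f x) ↔ q x) :
    H →* Equiv.Perm (Subtype q) where
  toFun f := (f : Equiv.Perm α).subtypePerm (h f f.2)
  map_one' := Equiv.ext fun _ => rfl
  map_mul' _ _ := Equiv.ext fun _ => rfl

theorem card_le_aux (N : ℕ) : ∀ (α : Type u) [Fintype α] [DecidableEq α], Fintype.card α = N →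
    ∀ H : Subgroup (Equiv.Perm α), Group.IsNilpotent H →
      Nat.card H ≤ nilBound N ∧ (H ≤ alternatingGroup α → Nat.card H ≤ altBound N) := by
  induction N using Nat.strong_induction_on with
  | _ N ih =>
  intro α _ _ hN H hH
  rcases isEmpty_or_nonempty α with he | hne
  · have h1 : Nat.card H = 1 := Nat.card_eq_one_iff_unique.2 ⟨inferInstance, inferInstance⟩
    rw [Fintype.card_eq_zero] at hN
    subst hN
    rw [h1]
    exact ⟨nilBound_pos 0, fun _ => by simp [altBound]⟩
  by_cases htr : MulAction.IsPretransitive H α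
  · rw [← hN]
    exact ⟨(card_le_transBound H).trans (transBound_le _), trans_alt H⟩
  classical
  obtain ⟨w⟩ := hne
  let q : α → Prop := fun x => x ∈ MulAction.orbit H w
  have hq : ∀ f ∈ H, ∀ x, q (f x) ↔ q x := fun f hf x => by
    show (⟨f, hf⟩ : H) • x ∈ MulAction.orbit H w ↔ _
    rw [← MulAction.orbit_eq_iff, MulAction.orbit_smul, MulAction.orbit_eq_iff]
  have hq' : ∀ f ∈ H, ∀ x, ¬ q (f x) ↔ ¬ q x := fun f hf x => not_congr (hq f hf x)
  obtain ⟨x, hx⟩ : ∃ x, ¬ q x := by
    by_contra hno
    push Not at hno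
    exact htr ⟨fun a b => by
      obtain ⟨g, hg⟩ := hno a
      obtain ⟨g', hg'⟩ := hno b
      exact ⟨g' * g⁻¹, by rw [← hg, mul_smul, inv_smul_smul]; exact hg'⟩⟩
  set rA := restrictHom H q hq
  set rB := restrictHom H (fun x => ¬ q x) hq'
  haveI := hH
  have hAn : Group.IsNilpotent rA.range :=
    Group.nilpotent_of_surjective rA.rangeRestrict rA.rangeRestrict_surjective
  have hBn : Group.IsNilpotent rB.range :=
    Group.nilpotent_of_surjective rB.rangeRestrict rB.rangeRestrict_surjective
  have hsum : Fintype.card (Subtype q) + Fintype.card {x // ¬ q x} = N := by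
    rw [← Fintype.card_sum, Fintype.card_congr (Equiv.sumCompl q), hN]
  have hA1 : 0 < Fintype.card (Subtype q) := Fintype.card_pos_iff.2 ⟨⟨w, MulAction.mem_orbit_self w⟩⟩
  have hB1 : 0 < Fintype.card {x // ¬ q x} := Fintype.card_pos_iff.2 ⟨⟨x, hx⟩⟩
  obtain ⟨hA, hA'⟩ := ih _ (by omega) (Subtype q) rfl rA.range hAn
  obtain ⟨hB, hB'⟩ := ih _ (by omega) {x // ¬ q x} rfl rB.range hBn
  set φ := (rA.rangeRestrict).prod rB.rangeRestrict
  have hinj : Function.Injective φ := fun f g hfg => Subtype.ext <| Equiv.ext fun z => by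
    rw [Prod.ext_iff] at hfg
    by_cases hz : q z
    · exact congrArg (fun e : Equiv.Perm (Subtype q) => (e ⟨z, hz⟩ : α)) (congrArg Subtype.val hfg.1)
    · exact congrArg (fun e : Equiv.Perm {x // ¬ q x} => (e ⟨z, hz⟩ : α)) (congrArg Subtype.val hfg.2)
  refine ⟨?_, fun hHA => ?_⟩
  · rw [← hsum]
    refine le_trans ?_ (nilBound_mul_le _ _)
    refine le_trans ?_ (Nat.mul_le_mul hA hB)
    rw [← Nat.card_prod]
    exact Nat.card_le_card_of_injective φ hinj
  · rw [← hsum]
    by_cases hev : rA.range ≤ alternatingGroup _ ∧ rB.range ≤ alternatingGroup _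
    · refine le_trans ?_ (altBound_mul_le hA1 hB1)
      refine le_trans ?_ (Nat.mul_le_mul (hA' hev.1) (hB' hev.2))
      rw [← Nat.card_prod]
      exact Nat.card_le_card_of_injective φ hinj
    · let sg : rA.range × rB.range →* ℤˣ :=
        (Equiv.Perm.sign.comp rA.range.subtype).coprod (Equiv.Perm.sign.comp rB.range.subtype)
      have hker : φ.range ≤ sg.ker := by
        rintro _ ⟨f, rfl⟩
        rw [MonoidHom.mem_ker]
        show Equiv.Perm.sign (rA f) * Equiv.Perm.sign (rB f) = 1
        have : Equiv.Perm.subtypeCongr (rA f) (rB f) = (f : Equiv.Perm α) := Equiv.ext fun z => by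
          rw [Equiv.Perm.subtypeCongr.apply]
          split_ifs <;> rfl
        rw [← Equiv.Perm.sign_subtypeCongr, this]
        exact Equiv.Perm.mem_alternatingGroup.1 (hHA f.2)
      have hne1 : sg.ker ≠ ⊤ := fun htop => hev ⟨fun g hg => Equiv.Perm.mem_alternatingGroup.2 (by
          have : ((⟨g, hg⟩ : rA.range), (1 : rB.range)) ∈ sg.ker := htop ▸ Subgroup.mem_top _
          simpa [sg] using this), fun g hg => Equiv.Perm.mem_alternatingGroup.2 (by
          have : ((1 : rA.range), (⟨g, hg⟩ : rB.range)) ∈ sg.ker := htop ▸ Subgroup.mem_top _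
          simpa [sg] using this)⟩
      have h2 : 2 ≤ sg.ker.index := by
        have h0 : sg.ker.index ≠ 0 := Subgroup.index_ne_zero_of_finite
        have h1 : sg.ker.index ≠ 1 := fun e => hne1 (Subgroup.index_eq_one.1 e)
        omega
      refine le_trans ?_ (nilBound_pair_le _ _)
      rw [Nat.le_div_iff_mul_le two_pos, Nat.card_congr (MonoidHom.ofInjective hinj).toEquiv]
      calc Nat.card φ.range * 2 ≤ Nat.card sg.ker * sg.ker.index :=
            Nat.mul_le_mul (Subgroup.card_le_of_le hker) h2
        _ = Nat.card rA.range * Nat.card rB.range := by rw [Subgroup.card_mul_index, Nat.card_prod]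
        _ ≤ _ := Nat.mul_le_mul hA hB

theorem card_le_nilBound (H : Subgroup (Equiv.Perm α)) (hH : Group.IsNilpotent H) :
    Nat.card H ≤ nilBound (Fintype.card α) := (card_le_aux _ α rfl H hH).1

theorem card_le_altBound (H : Subgroup (Equiv.Perm α)) (hH : Group.IsNilpotent H) (hA : H ≤ alternatingGroup α) :
    Nat.card H ≤ altBound (Fintype.card α) := (card_le_aux _ α rfl H hH).2 hA

end CfsgLib.NilPerm
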