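import Cfsg.Agent.NilPerm.Bound

/-!
The nilpotent permutation groups attaining the bound in degree congruent to three modulo four.
-/

set_option autoImplicit false
set_option linter.style.haveILetI false

namespace CfsgLib.NilPerm

universe u

/-- An element of order three in the centre. -/
theorem exists_central_three {G : Type u} [Group G] [Finite G] [Group.IsNilpotent G] {k : ℕ}
    (h : Nat.card G = 3 * 2 ^ k) : ∃ x : G, orderOf x = 3 ∧ ∀ g, g * x = x * g := by
  haveI := Fact.mk Nat.prime_three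
  obtain ⟨P⟩ : Nonempty (Sylow 3 G) := inferInstance
  have hPc : Nat.card P = 3 := by
    rw [P.card_eq_multiplicity, h, Nat.factorization_mul (by norm_num) (by positivity), Finsupp.add_apply,
      Nat.Prime.factorization_self Nat.prime_three,
      Nat.factorization_eq_zero_of_not_dvd (fun hd => absurd (Nat.prime_three.dvd_of_dvd_pow hd) (by norm_num)),
      add_zero, pow_one]
  obtain ⟨⟨x, hxP⟩, hx⟩ := exists_prime_orderOf_dvd_card' (G := (P : Subgroup G)) 3 (by rw [hPc])
  rw [Subgroup.orderOf_mk] at hx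
  refine ⟨x, hx, fun g => ?_⟩
  obtain ⟨c, hc, y, hy, rfl⟩ := exists_mul_centralizer P g
  haveI : IsCyclic (P : Subgroup G) := isCyclic_of_prime_card hPc
  haveI : IsMulCommutative (P : Subgroup G) := IsCyclic.isMulCommutative
  have h1 : y * x = x * y :=
    congrArg Subtype.val (IsMulCommutative.is_comm.comm (⟨y, hy⟩ : (P : Subgroup G)) ⟨x, hxP⟩)
  have h2 : x * c = c * x := Subgroup.mem_centralizer_iff.1 hc x hxP
  rw [mul_assoc, h1, ← mul_assoc, ← h2, mul_assoc]

/-- Two groups of order `3 * 2 ^ v` in the centraliser of `x` containing `x` are conjugate. -/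
theorem conj_of_centralizer {G : Type u} [Group G] [Finite G] {x : G} (hx : orderOf x = 3) {v : ℕ}
    (hv : ¬ 2 ^ (v + 1) ∣ Nat.card (Subgroup.centralizer ({x} : Set G))) {N₁ N₂ : Subgroup G}
    (h1 : Nat.card N₁ = 3 * 2 ^ v) (h2 : Nat.card N₂ = 3 * 2 ^ v) (hx1 : x ∈ N₁) (hx2 : x ∈ N₂)
    (hC1 : N₁ ≤ Subgroup.centralizer ({x} : Set G)) (hC2 : N₂ ≤ Subgroup.centralizer ({x} : Set G)) :
    ∃ c, N₂ = N₁.map (MulAut.conj c).toMonoidHom := by
  haveI := Fact.mk Nat.prime_two
  set C := Subgroup.centralizer ({x} : Set G)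
  have hfac : (Nat.card C).factorization 2 = v := by
    refine le_antisymm ?_ ?_
    · by_contra hlt
      push Not at hlt
      exact hv ((pow_dvd_pow 2 hlt).trans (Nat.ordProj_dvd _ 2))
    · refine (Nat.prime_two.pow_dvd_iff_le_factorization Nat.card_pos.ne').1 ?_
      exact (Dvd.intro_left 3 rfl).trans (h1 ▸ Subgroup.card_dvd_of_le hC1)
  have get : ∀ N : Subgroup G, Nat.card N = 3 * 2 ^ v → N ≤ C → ∃ Q : Sylow 2 C, (Q : Subgroup C).map C.subtype ≤ N :=
    fun N hN hle => by
      obtain ⟨R⟩ : Nonempty (Sylow 2 N) := inferInstance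
      have hR : Nat.card R = 2 ^ v := by
        rw [R.card_eq_multiplicity, hN, Nat.factorization_mul (by norm_num) (by positivity), Finsupp.add_apply,
          Nat.factorization_eq_zero_of_not_dvd (by norm_num : ¬ 2 ∣ 3), zero_add, Nat.Prime.factorization_pow Nat.prime_two,
          Finsupp.single_eq_same]
      have hle' : (R : Subgroup N).map N.subtype ≤ C := le_trans (Subgroup.map_subtype_le _) hle
      refine ⟨Sylow.ofCard (((R : Subgroup N).map N.subtype).subgroupOf C) ?_, ?_⟩
      · rw [hfac, Nat.card_congr (Subgroup.subgroupOfEquivOfLe hle').toEquiv,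
          Subgroup.card_map_of_injective N.subtype_injective, hR]
      · rw [Sylow.coe_ofCard, Subgroup.subgroupOf_map_subtype, inf_eq_left.2 hle']
        exact Subgroup.map_subtype_le _
  obtain ⟨Q₁, hQ1⟩ := get N₁ h1 hC1
  obtain ⟨Q₂, hQ2⟩ := get N₂ h2 hC2
  obtain ⟨c, hc⟩ := MulAction.exists_smul_eq C Q₁ Q₂
  refine ⟨c, ?_⟩
  set M := N₁.map (MulAut.conj (c : G)).toMonoidHom
  set K := Subgroup.zpowers x ⊔ (Q₂ : Subgroup C).map C.subtype
  have hMc : Nat.card M = 3 * 2 ^ v := by
    rw [Subgroup.card_map_of_injective (MulAut.conj (c : G)).injective]; exact h1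
  have hQc : Nat.card ((Q₂ : Subgroup C).map C.subtype) = 2 ^ v := by
    rw [Subgroup.card_map_of_injective C.subtype_injective, Q₂.card_eq_multiplicity, hfac]
  have hK : 3 * 2 ^ v ∣ Nat.card K := by
    refine Nat.Coprime.mul_dvd_of_dvd_of_dvd (((Nat.coprime_primes Nat.prime_three Nat.prime_two).2 (by norm_num)).pow_right v) ?_ ?_
    · rw [← hx, ← Nat.card_zpowers]; exact Subgroup.card_dvd_of_le le_sup_left
    · rw [← hQc]; exact Subgroup.card_dvd_of_le le_sup_right
  have hK2 : K ≤ N₂ := sup_le (Subgroup.zpowers_le.2 hx2) hQ2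
  have hKM : K ≤ M := by
    refine sup_le (Subgroup.zpowers_le.2 ⟨x, hx1, ?_⟩) ?_
    · show (c : G) * x * (c : G)⁻¹ = x
      rw [Subgroup.mem_centralizer_singleton_iff.1 c.2, mul_inv_cancel_right]
    · rintro _ ⟨z, hz, rfl⟩
      rw [← hc] at hz
      obtain ⟨w, hw, rfl⟩ := hz
      exact ⟨(w : G), hQ1 ⟨w, hw, rfl⟩, rfl⟩
  have e2 : K = N₂ := Subgroup.eq_of_le_of_card_ge hK2 (h2 ▸ Nat.le_of_dvd Nat.card_pos hK)
  have eM : K = M := Subgroup.eq_of_le_of_card_ge hKM (hMc ▸ Nat.le_of_dvd Nat.card_pos hK)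
  exact e2.symm.trans eM

variable {α : Type u} [Fintype α] [DecidableEq α]

theorem padicValNat_two_le {a b : ℕ} (h : a ≤ b) : padicValNat 2 a.factorial ≤ padicValNat 2 b.factorial :=
  (padicValNat_dvd_iff_le (Nat.factorial_ne_zero _)).1 (pow_padicValNat_dvd.trans (Nat.factorial_dvd_factorial h))

theorem padicValNat_two_add (a b : ℕ) :
    padicValNat 2 a.factorial + padicValNat 2 b.factorial ≤ padicValNat 2 (a + b).factorial := by
  have h := twoPart_mul_le a b
  rw [twoPart, twoPart, twoPart, ← pow_add] at h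
  exact (Nat.pow_le_pow_iff_right (by norm_num)).1 h

/-- The centraliser of an element of order three containing a large two-group belongs to a three-cycle. -/
theorem isThreeCycle_of_large {x : Equiv.Perm α} (hx : orderOf x = 3) (hn : Fintype.card α % 4 = 3) {w : ℕ}
    (hw : padicValNat 2 (Fintype.card α - 3).factorial ≤ w + 1)
    (hd : 2 ^ w ∣ Nat.card (Subgroup.centralizer ({x} : Set (Equiv.Perm α)))) :
    x.IsThreeCycle ∧ ¬ 2 ^ (padicValNat 2 (Fintype.card α - 3).factorial + 1) ∣
      Nat.card (Subgroup.centralizer ({x} : Set (Equiv.Perm α))) := by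
  haveI := Fact.mk Nat.prime_two
  set n := Fintype.card α
  obtain ⟨k, hk⟩ := Equiv.Perm.cycleType_prime_order (σ := x) (by rw [hx]; exact Nat.prime_three)
  rw [hx] at hk
  have hsum : x.cycleType.sum ≤ n := by
    rw [Equiv.Perm.sum_cycleType]; exact Finset.card_le_univ _
  have hcard := Equiv.Perm.nat_card_centralizer x
  rw [hk, Multiset.sum_replicate, Multiset.prod_replicate, Multiset.toFinset_replicate, if_neg (by omega),
    Finset.prod_singleton, Multiset.count_replicate_self, smul_eq_mul] at hcard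
  rw [hk, Multiset.sum_replicate, smul_eq_mul] at hsum
  have hv : padicValNat 2 (Nat.card (Subgroup.centralizer ({x} : Set (Equiv.Perm α)))) =
      padicValNat 2 (n - (k + 1) * 3).factorial + padicValNat 2 (k + 1).factorial := by
    rw [hcard, padicValNat.mul (mul_ne_zero (Nat.factorial_ne_zero _) (by positivity)) (Nat.factorial_ne_zero _),
      padicValNat.mul (Nat.factorial_ne_zero _) (by positivity), (padicValNat.eq_zero_of_not_dvd (fun h => absurd (Nat.prime_two.dvd_of_dvd_pow h) (by norm_num)) :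
        padicValNat 2 (3 ^ (k + 1)) = 0), add_zero]
  have hwle := (padicValNat_dvd_iff_le Nat.card_pos.ne').1 hd
  rw [hv] at hwle
  have hk0 : k = 0 := by
    by_contra hne
    obtain ⟨q, hq⟩ : ∃ q, n = 4 * (q + 1) + 3 := ⟨n / 4 - 1, by omega⟩
    have h1 := padicValNat_two_add (n - (k + 1) * 3) (k + 1)
    have h2 := padicValNat_two_le (show n - (k + 1) * 3 + (k + 1) ≤ 4 * q + 3 by omega)
    have h3 : 2 ^ (padicValNat 2 (4 * q + 3).factorial + 2) ≤ 2 ^ padicValNat 2 (n - 3).factorial := by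
      rw [pow_add, hq, show 4 * (q + 1) + 3 - 3 = 4 * (q + 1) by omega]
      change twoPart (4 * q + 3) * 2 ^ 2 ≤ twoPart (4 * (q + 1))
      rw [twoPart_four_add_three]
      have := eight_mul_twoPart_le q
      omega
    have h4 := (Nat.pow_le_pow_iff_right (by norm_num)).1 h3
    omega
  subst hk0
  refine ⟨hk, fun hbad => ?_⟩
  have h5 := (padicValNat_dvd_iff_le Nat.card_pos.ne').1 hbad
  rw [hv] at h5
  simp only [zero_add, one_mul, Nat.factorial_one, padicValNat_one_right, add_zero] at h5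
  omega

theorem conj_sym (hn : Fintype.card α % 4 = 3) (N₁ N₂ : Subgroup (Equiv.Perm α))
    (hN₁ : Group.IsNilpotent N₁) (hN₂ : Group.IsNilpotent N₂)
    (h1 : Nat.card N₁ = 3 * twoPart (Fintype.card α - 3)) (h2 : Nat.card N₂ = 3 * twoPart (Fintype.card α - 3)) :
    ∃ g : Equiv.Perm α, N₂ = N₁.map (MulAut.conj g).toMonoidHom := by
  set v := padicValNat 2 (Fintype.card α - 3).factorial with hv
  have get : ∀ N : Subgroup (Equiv.Perm α), Group.IsNilpotent N → Nat.card N = 3 * 2 ^ v →
      ∃ x : Equiv.Perm α, x ∈ N ∧ orderOf x = 3 ∧ N ≤ Subgroup.centralizer ({x} : Set (Equiv.Perm α)) ∧ x.IsThreeCycle ∧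
        ¬ 2 ^ (v + 1) ∣ Nat.card (Subgroup.centralizer ({x} : Set (Equiv.Perm α))) := fun N hN hc => by
    haveI := hN
    obtain ⟨⟨x, hxN⟩, hx, hcx⟩ := exists_central_three hc
    rw [Subgroup.orderOf_mk] at hx
    have hle : N ≤ Subgroup.centralizer ({x} : Set (Equiv.Perm α)) := fun z hz =>
      Subgroup.mem_centralizer_singleton_iff.2 (congrArg Subtype.val (hcx ⟨z, hz⟩))
    exact ⟨x, hxN, hx, hle, isThreeCycle_of_large hx hn (w := v) (Nat.le_succ _)
      ((Dvd.intro_left 3 hc.symm).trans (Subgroup.card_dvd_of_le hle))⟩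
  obtain ⟨x₁, hm1, ho1, hC1, ht1, hv1⟩ := get N₁ hN₁ h1
  obtain ⟨x₂, hm2, ho2, hC2, ht2, hv2⟩ := get N₂ hN₂ h2
  obtain ⟨g, hg⟩ := isConj_iff.1 (Equiv.Perm.isConj_iff_cycleType_eq.2 (ht1.trans ht2.symm))
  set N₁' := N₁.map (MulAut.conj g).toMonoidHom
  have hC1' : N₁' ≤ Subgroup.centralizer ({x₂} : Set (Equiv.Perm α)) := by
    rintro _ ⟨z, hz, rfl⟩
    have := Subgroup.mem_centralizer_singleton_iff.1 (hC1 hz)
    rw [Subgroup.mem_centralizer_singleton_iff, ← hg]
    show g * z * g⁻¹ * (g * x₁ * g⁻¹) = g * x₁ * g⁻¹ * (g * z * g⁻¹)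
    rw [show g * z * g⁻¹ * (g * x₁ * g⁻¹) = g * (z * x₁) * g⁻¹ by group, this]
    group
  obtain ⟨c, hc⟩ := conj_of_centralizer ho2 hv2 (N₁ := N₁') (N₂ := N₂)
    (by rw [Subgroup.card_map_of_injective (MulAut.conj g).injective]; exact h1) h2 ⟨x₁, hm1, hg⟩ hm2 hC1' hC2
  refine ⟨c * g, ?_⟩
  rw [hc, Subgroup.map_map]
  congr 1

theorem conj_alt (hn : Fintype.card α % 4 = 3) (h7 : 7 ≤ Fintype.card α) (N₁ N₂ : Subgroup (alternatingGroup α))
    (hN₁ : Group.IsNilpotent N₁) (hN₂ : Group.IsNilpotent N₂) {v : ℕ}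
    (hv : v + 1 = padicValNat 2 (Fintype.card α - 3).factorial)
    (h1 : Nat.card N₁ = 3 * 2 ^ v) (h2 : Nat.card N₂ = 3 * 2 ^ v) :
    ∃ g : alternatingGroup α, N₂ = N₁.map (MulAut.conj g).toMonoidHom := by
  have get : ∀ N : Subgroup (alternatingGroup α), Group.IsNilpotent N → Nat.card N = 3 * 2 ^ v →
      ∃ x : alternatingGroup α, x ∈ N ∧ orderOf x = 3 ∧ N ≤ Subgroup.centralizer ({x} : Set (alternatingGroup α)) ∧
        (x : Equiv.Perm α).IsThreeCycle ∧
        ¬ 2 ^ (v + 1) ∣ Nat.card (Subgroup.centralizer ({x} : Set (alternatingGroup α))) := fun N hN hc => by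
    haveI := hN
    obtain ⟨⟨x, hxN⟩, hx, hcx⟩ := exists_central_three hc
    rw [Subgroup.orderOf_mk] at hx
    have hle : N ≤ Subgroup.centralizer ({x} : Set (alternatingGroup α)) := fun z hz =>
      Subgroup.mem_centralizer_singleton_iff.2 (congrArg Subtype.val (hcx ⟨z, hz⟩))
    set C := Subgroup.centralizer ({x} : Set (alternatingGroup α))
    set D := Subgroup.centralizer ({(x : Equiv.Perm α)} : Set (Equiv.Perm α))
    have hmap : C.map (alternatingGroup α).subtype = D ⊓ alternatingGroup α := by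
      ext z
      constructor
      · rintro ⟨y, hy, rfl⟩
        exact ⟨Subgroup.mem_centralizer_singleton_iff.2
          (congrArg Subtype.val (Subgroup.mem_centralizer_singleton_iff.1 hy)), y.2⟩
      · rintro ⟨hz, hzA⟩
        exact ⟨⟨z, hzA⟩, Subgroup.mem_centralizer_singleton_iff.2
          (Subtype.ext (Subgroup.mem_centralizer_singleton_iff.1 hz)), rfl⟩
    have hCd : Nat.card C ∣ Nat.card D := by
      rw [← Subgroup.card_map_of_injective (alternatingGroup α).subtype_injective (K := C), hmap]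
      exact Subgroup.card_dvd_of_le inf_le_left
    obtain ⟨htc, hnd⟩ := isThreeCycle_of_large (x := (x : Equiv.Perm α)) (by rw [Subgroup.orderOf_coe]; exact hx) hn
      (w := v) (le_of_eq hv.symm) ((Dvd.intro_left 3 hc.symm).trans ((Subgroup.card_dvd_of_le hle).trans hCd))
    refine ⟨x, hxN, hx, hle, htc, fun hbad => hnd ?_⟩
    -- the centraliser contains an odd permutation
    rw [← hv, pow_succ]
    have h2C : Nat.card C * 2 ∣ Nat.card D := by
      have hm := Subgroup.card_mul_index ((alternatingGroup α).subgroupOf D)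
      have hcAD : Nat.card ((alternatingGroup α).subgroupOf D) = Nat.card C := by
        rw [← Subgroup.inf_subgroupOf_right, Nat.card_congr (Subgroup.subgroupOfEquivOfLe inf_le_right).toEquiv,
          inf_comm, ← hmap, Subgroup.card_map_of_injective (alternatingGroup α).subtype_injective]
      rw [← hm, hcAD]
      refine Nat.mul_dvd_mul_left _ ?_
      obtain ⟨a, ha, b, hb, hab⟩ : ∃ a, a ∉ (x : Equiv.Perm α).support ∧ ∃ b, b ∉ (x : Equiv.Perm α).support ∧ a ≠ b := by
        have h2' : 1 < (x : Equiv.Perm α).supportᶜ.card := by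
          rw [Finset.card_compl, htc.card_support]; omega
        obtain ⟨a, ha, b, hb, hab⟩ := Finset.one_lt_card.1 h2'
        exact ⟨a, Finset.mem_compl.1 ha, b, Finset.mem_compl.1 hb, hab⟩
      have hswap : Equiv.swap a b ∈ D := by
        rw [Equiv.Perm.notMem_support] at ha hb
        rw [Subgroup.mem_centralizer_singleton_iff, Equiv.swap_mul_eq_mul_swap, Equiv.Perm.inv_eq_iff_eq.2 ha.symm,
          Equiv.Perm.inv_eq_iff_eq.2 hb.symm]
      have hdvd : ((alternatingGroup α).subgroupOf D).index ∣ 2 := by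
        haveI : Nontrivial α := Fintype.one_lt_card_iff_nontrivial.1 (by omega)
        rw [← alternatingGroup.index_eq_two (α := α)]
        exact Subgroup.relIndex_dvd_index_of_normal _ _
      rcases (Nat.dvd_prime Nat.prime_two).1 hdvd with h1' | h1'
      · exfalso
        have htop := Subgroup.index_eq_one.1 h1'
        have : (⟨Equiv.swap a b, hswap⟩ : D) ∈ (alternatingGroup α).subgroupOf D := htop ▸ Subgroup.mem_top _
        rw [Subgroup.mem_subgroupOf, Equiv.Perm.mem_alternatingGroup] at this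
        change Equiv.Perm.sign (Equiv.swap a b) = 1 at this
        rw [Equiv.Perm.sign_swap hab] at this
        exact absurd this (by decide)
      · rw [h1']
    exact (Nat.mul_dvd_mul_right hbad 2).trans h2C
  obtain ⟨x₁, hm1, ho1, hC1, ht1, hv1⟩ := get N₁ hN₁ h1
  obtain ⟨x₂, hm2, ho2, hC2, ht2, hv2⟩ := get N₂ hN₂ h2
  obtain ⟨g, hg⟩ := isConj_iff.1 (alternatingGroup.isConj_of
    (Equiv.Perm.isConj_iff_cycleType_eq.2 (ht1.trans ht2.symm)) (by rw [ht1.card_support]; omega))
  set N₁' := N₁.map (MulAut.conj g).toMonoidHom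
  have hC1' : N₁' ≤ Subgroup.centralizer ({x₂} : Set (alternatingGroup α)) := by
    rintro _ ⟨z, hz, rfl⟩
    have := Subgroup.mem_centralizer_singleton_iff.1 (hC1 hz)
    rw [Subgroup.mem_centralizer_singleton_iff, ← hg]
    show g * z * g⁻¹ * (g * x₁ * g⁻¹) = g * x₁ * g⁻¹ * (g * z * g⁻¹)
    rw [show g * z * g⁻¹ * (g * x₁ * g⁻¹) = g * (z * x₁) * g⁻¹ by group, this]
    group
  obtain ⟨c, hc⟩ := conj_of_centralizer ho2 hv2 (N₁ := N₁') (N₂ := N₂)
    (by rw [Subgroup.card_map_of_injective (MulAut.conj g).injective]; exact h1) h2 ⟨x₁, hm1, hg⟩ hm2 hC1' hC2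
  refine ⟨c * g, ?_⟩
  rw [hc, Subgroup.map_map]
  congr 1

/-- The order of a Sylow two-subgroup of a symmetric group. -/
theorem card_sylow_perm {m : ℕ} (P : Sylow 2 (Equiv.Perm (Fin m))) : Nat.card P = twoPart m := by
  rw [P.card_eq_multiplicity, Nat.card_perm, Nat.card_fin, Nat.factorization_def _ Nat.prime_two, twoPart]

/-- The order of a Sylow two-subgroup of an alternating group. -/
theorem card_sylow_alt {m : ℕ} (hm : 2 ≤ m) (P : Sylow 2 (alternatingGroup (Fin m))) :
    ∃ v, v + 1 = padicValNat 2 m.factorial ∧ Nat.card P = 2 ^ v := by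
  haveI := Fact.mk Nat.prime_two
  haveI : Nontrivial (Fin m) := Fintype.one_lt_card_iff_nontrivial.1 (by rw [Fintype.card_fin]; omega)
  have hA : 2 * Nat.card (alternatingGroup (Fin m)) = m.factorial := by
    rw [two_mul_nat_card_alternatingGroup, Nat.card_perm, Nat.card_fin]
  refine ⟨padicValNat 2 (Nat.card (alternatingGroup (Fin m))), ?_, ?_⟩
  · rw [← hA, padicValNat.mul (by norm_num) Nat.card_pos.ne', padicValNat.self (by norm_num), add_comm]
  · rw [P.card_eq_multiplicity, Nat.factorization_def _ Nat.prime_two]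

/-- The embedding attaining the bound. -/
theorem exists_embedding {m n : ℕ} (h : n = m + 3) :
    ∃ ψ : Equiv.Perm (Fin m) × Multiplicative (ZMod 3) →* Equiv.Perm (Fin n), Function.Injective ψ ∧
      ∀ a b, Equiv.Perm.sign (ψ (a, b)) = Equiv.Perm.sign a := by
  set z := MulAction.toPermHom (Multiplicative (ZMod 3)) (Multiplicative (ZMod 3))
  have hzi : Function.Injective z := fun a b hab => by
    simpa [z] using congrArg (fun f : Equiv.Perm (Multiplicative (ZMod 3)) => f 1) hab
  have hzs : ∀ b, Equiv.Perm.sign (z b) = 1 := fun b => by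
    have h3 : b ^ 3 = 1 := by
      have := pow_card_eq_one (x := b)
      rwa [Fintype.card_multiplicative, ZMod.card] at this
    have : (Equiv.Perm.sign (z b)) ^ 3 = 1 := by rw [← map_pow, ← map_pow, h3, map_one, map_one]
    rcases Int.units_eq_one_or (Equiv.Perm.sign (z b)) with e | e
    · exact e
    · rw [e] at this; exact absurd this (by decide)
  let e : Fin m ⊕ Multiplicative (ZMod 3) ≃ Fin n := Fintype.equivFinOfCardEq (by
    rw [Fintype.card_sum, Fintype.card_fin, Fintype.card_multiplicative, ZMod.card, h])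
  let pc : Equiv.Perm (Fin m ⊕ Multiplicative (ZMod 3)) ≃* Equiv.Perm (Fin n) := e.permCongrHom
  refine ⟨pc.toMonoidHom.comp ((Equiv.Perm.sumCongrHom _ _).comp (MonoidHom.prodMap (MonoidHom.id _) z)), ?_, ?_⟩
  · exact pc.injective.comp (Equiv.Perm.sumCongrHom_injective.comp (Function.Injective.prodMap (fun a b h => h) hzi))
  · intro a b
    show Equiv.Perm.sign (e.permCongr (Equiv.Perm.sumCongr a (z b))) = _
    rw [Equiv.Perm.sign_permCongr, Equiv.Perm.sign_sumCongr, hzs, mul_one]

end CfsgLib.NilPerm
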